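import Groth.Prelude.Def_Dual3
import Groth.Agent.PerfA.PerfLocal
import Groth.Agent.Dcoh.Restrict
import Groth.Agent.LoccohB.TildeLocD
import Groth.Agent.LoccohB.LBC
import Groth.Agent.PerfB.TildeExact

/-!
# Invertible objects of `D(O_X)`: checking on affine charts

* `isInvertibleD_of_cover`: `K` is invertible if around every point there is an open immersion `j : V ⟶ X`
  with `K|_V ≅ O_V[n]`.
* `isInvertibleD_of_chart`: the same from charts `j : Spec A ⟶ X` with `K|_{Spec A} ≅ ω~` such that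
  `ω ⊗ᴸ A_f ≅ A_f[m]` for some `f` not in the given prime.
-/

set_option autoImplicit false
universe u
open CategoryTheory CategoryTheory.Limits AlgebraicGeometry
attribute [local instance] HasDerivedCategory.standard

namespace Groth.Agent.Dual.H313.InvLocal

open Groth.Agent.PerfA.Restrict (restrictD)
open Groth.Agent.PerfA.PerfLocal (restrictDComp restrictDCongr)
open Groth.Agent.LoccohB.FlatLBC

variable {X : Scheme.{u}}

/-- `O_X[n]` in `D(O_X)`. -/
noncomputable abbrev oD (X : Scheme.{u}) : DCoh.D X := DCoh.inD X (Coh.structureModule X)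

/-- `O_X|_U ≅ O_U` on derived categories. -/
noncomputable def restrictO {U X : Scheme.{u}} (j : U ⟶ X) [IsOpenImmersion j] :
    (restrictD j).obj (oD X) ≅ oD U :=
  ((Scheme.Modules.restrictFunctor j).mapDerivedCategorySingleFunctor 0).app _ ≪≫
    (DerivedCategory.singleFunctor _ 0).mapIso (Groth.Agent.Dcoh.Restrict.restrictUnit j)

/-- `O_X[n]|_U ≅ O_U[n]`. -/
noncomputable def restrictOShift {U X : Scheme.{u}} (j : U ⟶ X) [IsOpenImmersion j] (n : ℤ) :
    (restrictD j).obj ((oD X)⟦n⟧) ≅ (oD U)⟦n⟧ :=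
  ((restrictD j).commShiftIso n).app _ ≪≫ (shiftFunctor _ n).mapIso (restrictO j)

/-- `K ∈ D(O_X)` is locally a shift of the structure sheaf around `x`. -/
def InvAt (K : DCoh.D X) (x : X) : Prop :=
  ∃ (V : Scheme.{u}) (j : V ⟶ X) (_ : IsOpenImmersion j) (n : ℤ) (y : V), j y = x ∧
    Nonempty ((restrictD j).obj K ≅ (oD V)⟦n⟧)

lemma InvAt.exists_opens {K : DCoh.D X} {x : X} (h : InvAt K x) :
    ∃ (U : X.Opens) (n : ℤ), x ∈ U ∧ Nonempty ((restrictD U.ι).obj K ≅ (oD (U : Scheme.{u}))⟦n⟧) := by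
  obtain ⟨V, j, _, n, y, rfl, ⟨e⟩⟩ := h
  refine ⟨j.opensRange, n, ⟨y, rfl⟩, ?_⟩
  have hg : (j.isoOpensRange).inv ≫ j = j.opensRange.ι := by
    rw [Iso.inv_comp_eq, Scheme.Hom.isoOpensRange_hom_ι]
  exact ⟨(restrictDCongr hg).symm.app K ≪≫ (restrictDComp (j.isoOpensRange).inv j).symm.app K ≪≫
    (restrictD (j.isoOpensRange).inv).mapIso e ≪≫ restrictOShift _ n⟩

/-- Invertibility can be checked on a cover by open immersions. -/
theorem isInvertibleD_of_cover
    [∀ (U : Scheme.{u}) (j : U ⟶ X) [IsOpenImmersion j], PreservesFiniteLimits (Scheme.Modules.restrictFunctor j)]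
    (K : DCoh.D X) (h : ∀ x, InvAt K x) : Dual3.IsInvertibleD K := by
  intro x
  obtain ⟨U, n, hx, ⟨e⟩⟩ := (h x).exists_opens
  exact ⟨U, n, hx, ⟨e⟩⟩

lemma invAt_of_isInvertibleD
    [∀ (U : Scheme.{u}) (j : U ⟶ X) [IsOpenImmersion j], PreservesFiniteLimits (Scheme.Modules.restrictFunctor j)]
    {K : DCoh.D X} (h : Dual3.IsInvertibleD K) (x : X) : InvAt K x := by
  obtain ⟨U, n, hx, ⟨e⟩⟩ := h x
  exact ⟨U, U.ι, inferInstance, n, ⟨x, hx⟩, rfl, ⟨e⟩⟩

/-- `InvAt` can be checked after restriction to an open neighbourhood. -/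
lemma InvAt.of_restrict {V : Scheme.{u}} (j : V ⟶ X) [IsOpenImmersion j] (K : DCoh.D X) (y : V)
    (h : InvAt ((restrictD j).obj K) y) : InvAt K (j y) := by
  obtain ⟨W, i, _, n, z, rfl, ⟨e⟩⟩ := h
  exact ⟨W, i ≫ j, inferInstance, n, z, rfl, ⟨(restrictDComp i j).symm.app K ≪≫ e⟩⟩

lemma InvAt.of_iso {K L : DCoh.D X} (e : K ≅ L) {x : X} (h : InvAt K x) : InvAt L x := by
  obtain ⟨W, i, _, n, z, rfl, ⟨e'⟩⟩ := h
  exact ⟨W, i, inferInstance, n, z, rfl, ⟨(restrictD i).mapIso e.symm ≪≫ e'⟩⟩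

section Affine

variable (A : CommRingCat.{u}) [PreservesFiniteLimits (tilde.functor A)]

/-- `A[n]~ ≅ O[n]` on `Spec A`. -/
noncomputable def tildeO : (DCoh.tildeD A).obj (Dual.inD A A) ≅ oD (Spec A) :=
  ((tilde.functor A).mapDerivedCategorySingleFunctor 0).app (ModuleCat.of A A) ≪≫
    (DerivedCategory.singleFunctor (Spec A).Modules 0).mapIso (tildeSelf (R := A))

/-- `A[n]~ ≅ O[n]` on `Spec A`. -/
noncomputable def tildeOShift (n : ℤ) : (DCoh.tildeD A).obj ((Dual.inD A A)⟦n⟧) ≅ (oD (Spec A))⟦n⟧ :=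
  ((DCoh.tildeD A).commShiftIso n).app _ ≪≫ (shiftFunctor _ n).mapIso (tildeO A)

end Affine

/-- If `ω ∈ D(A)` satisfies `ω ⊗ᴸ A_f ≅ A_f[m]` with `f ∉ q`, then `ω~` is a shift of the structure sheaf
near `q`. -/
theorem invAt_tilde (A : Type u) [CommRing A] [PreservesFiniteLimits (tilde.functor (CommRingCat.of A))]
    (ω : Dual.D A) (q : PrimeSpectrum A) (f : A)
    (hf : f ∉ q.asIdeal) (m : ℤ) [DRing.HasLBaseChange (algebraMap A (Localization.Away f))]
    (e : Nonempty ((DRing.LBaseChange (algebraMap A (Localization.Away f))).obj ω ≅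
      (Dual.inD (Localization.Away f) (Localization.Away f))⟦m⟧)) :
    InvAt ((DCoh.tildeD (CommRingCat.of A)).obj ω) (q : Spec (CommRingCat.of A)) := by
  obtain ⟨e⟩ := e
  let φ : CommRingCat.of A ⟶ CommRingCat.of (Localization.Away f) :=
    CommRingCat.ofHom (algebraMap A (Localization.Away f))
  have hj : IsOpenImmersion (Spec.map φ) := inferInstance
  have hfl : (algebraMap A (Localization.Away f)).Flat := by
    rw [RingHom.flat_algebraMap_iff]
    exact IsLocalization.flat (Localization.Away f) (Submonoid.powers f)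
  have := Groth.Agent.PerfB.TildeExact.preservesFiniteLimits_tilde (CommRingCat.of (Localization.Away f))
  have hq : q ∈ Set.range (PrimeSpectrum.comap (algebraMap A (Localization.Away f))) := by
    rw [PrimeSpectrum.localization_away_comap_range _ f]
    exact hf
  obtain ⟨z, hz⟩ := hq
  refine ⟨_, Spec.map φ, hj, m, z, hz, ⟨?_⟩⟩
  exact (Groth.Agent.LoccohB.TildeLocD.tildeDRestrictIso φ hfl).app ω ≪≫
    (DCoh.tildeD _).mapIso ((LBaseChangeIso (algebraMap A (Localization.Away f)) hfl).symm.app ω ≪≫ e) ≪≫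
      tildeOShift (CommRingCat.of (Localization.Away f)) m

end Groth.Agent.Dual.H313.InvLocal
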